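import Mathlib
import Cfsg.Prelude.Def_SporadicB

/-!
# Recognising non-split double covers

* a normal subgroup of order 2 is central;
* a perfect group whose centre has order 2 and whose central quotient is `K` is a non-split double
  cover of `K`; the statement is transported along an isomorphism.
-/

set_option autoImplicit false

namespace Cfsg.Agent.Lib.Helper28.DC

/-- A normal subgroup of order two is central. -/
theorem le_center_of_card_two {G : Type*} [Group G] (N : Subgroup G) [hN : N.Normal]
    (h2 : Nat.card N = 2) : N ≤ Subgroup.center G := by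
  intro n hn
  rw [Subgroup.mem_center_iff]
  intro g
  by_cases h1 : n = 1
  · rw [h1, mul_one, one_mul]
  · obtain ⟨y, -, hy⟩ := (Nat.card_eq_two_iff' (1 : N)).mp h2
    have hc : g * n * g⁻¹ ∈ N := hN.conj_mem n hn g
    have e1 : (⟨n, hn⟩ : N) = y := hy _ (fun h => h1 (congrArg Subtype.val h))
    have e2 : (⟨g * n * g⁻¹, hc⟩ : N) = y := hy _ (fun h => by
      have h' : g * n * g⁻¹ = 1 := congrArg Subtype.val h
      apply h1
      have : n = g⁻¹ * (g * n * g⁻¹) * g := by group
      rw [this, h', mul_one, inv_mul_cancel])
    have e3 : g * n * g⁻¹ = n := congrArg Subtype.val (e2.trans e1.symm)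
    calc g * n = g * n * g⁻¹ * g := by group
      _ = n * g := by rw [e3]

/-- The centre of a non-abelian simple group (order not prime) is trivial. -/
theorem center_eq_bot_of_simple {G : Type*} [Group G] [IsSimpleGroup G]
    (hnp : ¬ (Nat.card G).Prime) : Subgroup.center G = ⊥ := by
  rcases (Subgroup.Normal.eq_bot_or_eq_top (H := Subgroup.center G) inferInstance) with h | h
  · exact h
  · exfalso
    let _ : CommGroup G := Group.commGroupOfCenterEqTop h
    exact hnp (IsSimpleGroup.prime_card (α := G))

/-- An index two subgroup contains the commutator subgroup. -/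
theorem commutator_le_of_index_two {G : Type*} [Group G] (L : Subgroup G) (h : L.index = 2) :
    commutator G ≤ L := by
  unfold commutator
  rw [Subgroup.commutator_le]
  intro a _ b _
  rw [commutatorElement_def, mul_assoc (a * b), Subgroup.mul_mem_iff_of_index_two h,
    Subgroup.mul_mem_iff_of_index_two h, Subgroup.mul_mem_iff_of_index_two h, inv_mem_iff,
    inv_mem_iff]

/-- A perfect group with centre of order two is a non-split double cover of its central
quotient. -/
theorem nonsplit_of_perfect {H K : Type*} [Group H] [Group K]
    (hc : Nat.card (Subgroup.center H) = 2) (e : H ⧸ Subgroup.center H ≃* K)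
    (hp : commutator H = ⊤) : Cfsg.IsNonsplitDoubleCover H K := by
  refine ⟨hc, ⟨e⟩, ?_⟩
  intro L hL
  have hi : L.index = 2 := by rw [hL.index_eq_card, hc]
  have hle := commutator_le_of_index_two L hi
  rw [hp, top_le_iff] at hle
  rw [hle, Subgroup.index_top] at hi
  exact absurd hi (by norm_num)

/-- Transport along an isomorphism. -/
theorem nonsplit_of_equiv {H H' K : Type*} [Group H] [Group H'] [Group K] (f : H ≃* H')
    (hc : Nat.card (Subgroup.center H) = 2) (e : H ⧸ Subgroup.center H ≃* K)
    (hp : commutator H = ⊤) : Cfsg.IsNonsplitDoubleCover H' K := by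
  have hcen : (Subgroup.center H).map (f : H →* H') = Subgroup.center H' := by
    ext x
    constructor
    · rintro ⟨z, hz, rfl⟩
      rw [Subgroup.mem_center_iff]
      intro g
      obtain ⟨g', rfl⟩ := f.surjective g
      have := Subgroup.mem_center_iff.mp hz g'
      show f g' * f z = f z * f g'
      rw [← map_mul, ← map_mul, this]
    · intro hx
      refine ⟨f.symm x, ?_, by simp⟩
      show f.symm x ∈ Subgroup.center H
      rw [Subgroup.mem_center_iff]
      intro g
      apply f.injective
      rw [map_mul, map_mul, f.apply_symm_apply]
      exact Subgroup.mem_center_iff.mp hx (f g)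
  have hc' : Nat.card (Subgroup.center H') = 2 := by
    rw [← hcen, ← hc]
    exact (Nat.card_congr (f.subgroupMap (Subgroup.center H)).toEquiv).symm
  have e' : H' ⧸ Subgroup.center H' ≃* K :=
    (QuotientGroup.congr (Subgroup.center H) (Subgroup.center H') f hcen).symm.trans e
  have hp' : commutator H' = ⊤ := by
    have h1 : (commutator H).map (f : H →* H') = commutator H' := by
      unfold commutator
      rw [Subgroup.map_commutator, Subgroup.map_top_of_surjective _ f.surjective]
    rw [← h1, hp, Subgroup.map_top_of_surjective _ f.surjective]
  exact nonsplit_of_perfect hc' e' hp'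

end Cfsg.Agent.Lib.Helper28.DC
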