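import Mathlib
import Cfsg.Prelude.Def_Spor_Fi23
import Cfsg.Prelude.Def_Spor_Fi22
import Cfsg.Prelude.Def_Sporadic
import Cfsg.Agent.Lib.Helper56.Fi23S.Main
import Cfsg.Agent.Lib.Helper28.DoubleCover
import Cfsg.Agent.S1689
import Cfsg.Agent.S1696
import Cfsg.Agent.S1697

/-!
# The subgroup `⟨a, …, i⟩` of the presented `Fi₂₃` is a non-split double cover of the presented `Fi₂₂`

`P9` is the group presented on the nine generators of `Fi₂₂` with the relators of `Fi₂₂` except
`(bcdefgh)^9`.  The Todd–Coxeter chain of helper56 for `Fi₂₃` (levels `a, b, c, d, e, f, h, i, g`)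
uses only these relators, so `|P9| ≤ 2 |Fi₂₂|`; `P9` maps onto the subgroup of `Fi₂₃` of order
`|Fi₂₃| / 31671 = 2 |Fi₂₂|` and onto `Fi₂₂`.
-/

set_option autoImplicit false
set_option maxRecDepth 1000000

namespace Cfsg.Agent.Lib.Helper28.Fi23Sub

open Cfsg.Spor Cfsg.Agent.Lib.Helper56 Cfsg.Agent.Lib.Helper56.TC Cfsg.Agent.Lib.Helper56.TC.Tabs
open Cfsg.Agent.Lib.Helper19.Cox (L L_mono mem_L L_zero)

/-- the further relators of the cover: the relators of `Fi₂₂` without `(bcdefgh)^9` -/
def extra9 : List (FreeGroup Fi22.Gen) := [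
  (Fi22.d * Fi22.c * Fi22.b * Fi22.d * Fi22.e * Fi22.f * Fi22.d * Fi22.h * Fi22.i) ^ 10,
  (Fi22.a * Fi22.b * Fi22.c * Fi22.d * Fi22.e * Fi22.f * Fi22.h) ^ 9 ]

/-- the presented cover -/
abbrev P9 : Type := CoxPresented Fi22.Gen Fi22.edges extra9

/-- the generators in the order of the chain -/
def gensU : List Fi22.Gen :=
  [Fi22.Gen.a, Fi22.Gen.b, Fi22.Gen.c, Fi22.Gen.d, Fi22.Gen.e, Fi22.Gen.f, Fi22.Gen.h, Fi22.Gen.i,
    Fi22.Gen.g]

theorem hallU : ∀ x : Fi22.Gen, x ∈ gensU := by intro x; cases x <;> decide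
theorem hnodeU : ∀ x ∈ gensU, x ∈ coxNodes Fi22.edges := by decide

/-- the generators of the presented cover in the order of the chain -/
noncomputable abbrev u : ℕ → P9 := pgen Fi22.edges extra9 gensU

theorem hu : ∀ i, u i * u i = 1 := pgen_sq Fi22.edges extra9 hallU hnodeU

theorem relU : ∀ w ∈ coxW Fi22.edges gensU ++ extra9.map (wordOf gensU), ew u w = 1 :=
  pgen_rel Fi22.edges extra9 hallU hnodeU

/-! ### The upper bound -/

theorem up0 : Finite (L u 0) ∧ Nat.card (L u 0) ≤ 1 := chain_zero u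

theorem sub0 : ∀ w ∈ Fi23U0.T.rels1, w ∈ coxW Fi22.edges gensU ++ extra9.map (wordOf gensU) := by
  decide +kernel

theorem up1 : Finite (L u 1) ∧ Nat.card (L u 1) ≤ 2 := by
  have h := chain_upper u Fi23U0.T 0 1 Fi23U0.cert (by decide +kernel) (fun _ _ => rfl)
    (by decide +kernel) hu (fun w hw => relU w (sub0 w hw)) up0
  have e : Fi23U0.T.N = 2 := rfl
  rw [e] at h
  exact ⟨h.1, le_trans h.2 (by norm_num)⟩

theorem sub1 : ∀ w ∈ Fi23U1.T.rels1, w ∈ coxW Fi22.edges gensU ++ extra9.map (wordOf gensU) := by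
  decide +kernel

theorem up2 : Finite (L u 2) ∧ Nat.card (L u 2) ≤ 6 := by
  have h := chain_upper u Fi23U1.T 1 2 Fi23U1.cert (by decide +kernel) (fun _ _ => rfl)
    (by decide +kernel) hu (fun w hw => relU w (sub1 w hw)) up1
  have e : Fi23U1.T.N = 3 := rfl
  rw [e] at h
  exact ⟨h.1, le_trans h.2 (by norm_num)⟩

theorem sub2 : ∀ w ∈ Fi23U2.T.rels1, w ∈ coxW Fi22.edges gensU ++ extra9.map (wordOf gensU) := by
  decide +kernel

theorem up3 : Finite (L u 3) ∧ Nat.card (L u 3) ≤ 24 := by
  have h := chain_upper u Fi23U2.T 2 6 Fi23U2.cert (by decide +kernel) (fun _ _ => rfl)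
    (by decide +kernel) hu (fun w hw => relU w (sub2 w hw)) up2
  have e : Fi23U2.T.N = 4 := rfl
  rw [e] at h
  exact ⟨h.1, le_trans h.2 (by norm_num)⟩

theorem sub3 : ∀ w ∈ Fi23U3.T.rels1, w ∈ coxW Fi22.edges gensU ++ extra9.map (wordOf gensU) := by
  decide +kernel

theorem up4 : Finite (L u 4) ∧ Nat.card (L u 4) ≤ 120 := by
  have h := chain_upper u Fi23U3.T 3 24 Fi23U3.cert (by decide +kernel) (fun _ _ => rfl)
    (by decide +kernel) hu (fun w hw => relU w (sub3 w hw)) up3
  have e : Fi23U3.T.N = 5 := rfl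
  rw [e] at h
  exact ⟨h.1, le_trans h.2 (by norm_num)⟩

theorem sub4 : ∀ w ∈ Fi23U4.T.rels1, w ∈ coxW Fi22.edges gensU ++ extra9.map (wordOf gensU) := by
  decide +kernel

theorem up5 : Finite (L u 5) ∧ Nat.card (L u 5) ≤ 720 := by
  have h := chain_upper u Fi23U4.T 4 120 Fi23U4.cert (by decide +kernel) (fun _ _ => rfl)
    (by decide +kernel) hu (fun w hw => relU w (sub4 w hw)) up4
  have e : Fi23U4.T.N = 6 := rfl
  rw [e] at h
  exact ⟨h.1, le_trans h.2 (by norm_num)⟩

theorem sub5 : ∀ w ∈ Fi23U5.T.rels1, w ∈ coxW Fi22.edges gensU ++ extra9.map (wordOf gensU) := by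
  decide +kernel

theorem up6 : Finite (L u 6) ∧ Nat.card (L u 6) ≤ 5040 := by
  have h := chain_upper u Fi23U5.T 5 720 Fi23U5.cert (by decide +kernel) (fun _ _ => rfl)
    (by decide +kernel) hu (fun w hw => relU w (sub5 w hw)) up5
  have e : Fi23U5.T.N = 7 := rfl
  rw [e] at h
  exact ⟨h.1, le_trans h.2 (by norm_num)⟩

theorem sub6 : ∀ w ∈ Fi23U6.T.rels1, w ∈ coxW Fi22.edges gensU ++ extra9.map (wordOf gensU) := by
  decide +kernel

theorem up7 : Finite (L u 7) ∧ Nat.card (L u 7) ≤ 1451520 := by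
  have h := chain_upper u Fi23U6.T 6 5040 Fi23U6.cert (by decide +kernel) (fun _ _ => rfl)
    (by decide +kernel) hu (fun w hw => relU w (sub6 w hw)) up6
  have e : Fi23U6.T.N = 288 := rfl
  rw [e] at h
  exact ⟨h.1, le_trans h.2 (by norm_num)⟩

theorem sub7 : ∀ w ∈ Fi23U7.T.rels1, w ∈ coxW Fi22.edges gensU ++ extra9.map (wordOf gensU) := by
  decide +kernel

theorem up8 : Finite (L u 8) ∧ Nat.card (L u 8) ≤ 4585351680 := by
  have h := chain_upper u Fi23U7.T 7 1451520 Fi23U7.cert (by decide +kernel) (fun _ _ => rfl)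
    (by decide +kernel) hu (fun w hw => relU w (sub7 w hw)) up7
  have e : Fi23U7.T.N = 3159 := rfl
  rw [e] at h
  exact ⟨h.1, le_trans h.2 (by norm_num)⟩

theorem sub8 : ∀ w ∈ Fi23U8.T.rels1, w ∈ coxW Fi22.edges gensU ++ extra9.map (wordOf gensU) := by
  decide +kernel

theorem up9 : Finite (L u 9) ∧ Nat.card (L u 9) ≤ 129123503308800 := by
  have h := chain_upper u Fi23U8.T 8 4585351680 Fi23U8.cert (by decide +kernel) (fun _ _ => rfl)
    (by decide +kernel) hu (fun w hw => relU w (sub8 w hw)) up8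
  have e : Fi23U8.T.N = 28160 := rfl
  rw [e] at h
  exact ⟨h.1, le_trans h.2 (by norm_num)⟩

theorem top9 : L u 9 = ⊤ := pgen_top Fi22.edges extra9 hallU

theorem card_P9_le : Finite P9 ∧ Nat.card P9 ≤ 129123503308800 := by
  obtain ⟨f, h⟩ := up9
  have hfin : Finite P9 := by
    have : Finite (⊤ : Subgroup P9) := by rw [← top9]; exact f
    exact Finite.of_equiv _ (Subgroup.topEquiv (G := P9)).toEquiv
  refine ⟨hfin, ?_⟩
  have e : Nat.card P9 = Nat.card (L u 9) := by
    rw [top9]
    exact (Nat.card_congr (Subgroup.topEquiv (G := P9)).toEquiv).symm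
  rw [e]
  exact h

/-! ### The map to `Fi₂₃` -/

/-- the generators of `Fi₂₂` as generators of `Fi₂₃` -/
def emb : Fi22.Gen → Fi23.Gen
  | .a => .a
  | .b => .b
  | .c => .c
  | .d => .d
  | .e => .e
  | .f => .f
  | .g => .g
  | .h => .h
  | .i => .i

theorem emb_label (x y : Fi22.Gen) :
    coxLabel Fi23.edges (emb x) (emb y) = coxLabel Fi22.edges x y := by
  cases x <;> cases y <;> decide

theorem emb_node (x : Fi22.Gen) : emb x ∈ coxNodes Fi23.edges := by
  cases x <;> decide

/-- the homomorphism from the presented cover to `Fi₂₃` -/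
noncomputable def α : P9 →* Fi23 :=
  PresentedGroup.toGroup (rels := coxRelators Fi22.edges ∪ {r | r ∈ extra9})
    (f := fun x => (PresentedGroup.of (emb x) : Fi23)) (by
    intro r hr
    rcases hr with hr | hr
    · obtain ⟨x, -, y, -, rfl⟩ := hr
      rw [map_pow, map_mul, FreeGroup.lift_apply_of, FreeGroup.lift_apply_of]
      have hmem : (FreeGroup.of (emb x) * FreeGroup.of (emb y)) ^ coxLabel Fi23.edges (emb x) (emb y)
          ∈ coxRelators Fi23.edges ∪ {r | r ∈ Fi23.extra} :=
        Or.inl ⟨emb x, emb_node x, emb y, emb_node y, rfl⟩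
      have h := PresentedGroup.one_of_mem hmem
      rw [map_pow, map_mul, emb_label] at h
      exact h
    · have hr' : r ∈ extra9 := hr
      simp only [extra9, List.mem_cons, List.not_mem_nil, or_false] at hr'
      rcases hr' with rfl | rfl
      · have hmem : (Fi23.d * Fi23.c * Fi23.b * Fi23.d * Fi23.e * Fi23.f * Fi23.d * Fi23.h * Fi23.i) ^ 10
            ∈ coxRelators Fi23.edges ∪ {r | r ∈ Fi23.extra} := Or.inr (by simp [Fi23.extra])
        have h := PresentedGroup.one_of_mem hmem
        simp only [map_pow, map_mul] at h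
        simp only [map_pow, map_mul, FreeGroup.lift_apply_of]
        exact h
      · have hmem : (Fi23.a * Fi23.b * Fi23.c * Fi23.d * Fi23.e * Fi23.f * Fi23.h) ^ 9
            ∈ coxRelators Fi23.edges ∪ {r | r ∈ Fi23.extra} := Or.inr (by simp [Fi23.extra])
        have h := PresentedGroup.one_of_mem hmem
        simp only [map_pow, map_mul] at h
        simp only [map_pow, map_mul, FreeGroup.lift_apply_of]
        exact h)

theorem α_of (x : Fi22.Gen) : α (PresentedGroup.of x) = PresentedGroup.of (emb x) := by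
  unfold α
  rw [PresentedGroup.toGroup.of]

theorem α_u (i : ℕ) (hi : i < 9) : α (u i) = Fi23S.u i := by
  have hi' : i < Fi23S.gensU.length := lt_trans hi (by decide)
  have h1 : u i = PresentedGroup.of gensU[i] := pgen_of_lt Fi22.edges extra9 gensU i hi
  have h2 : Fi23S.u i = PresentedGroup.of (Fi23S.gensU[i]'hi') :=
    pgen_of_lt Fi23.edges Fi23.extra Fi23S.gensU i hi'
  rw [h1, h2, α_of]
  congr 1
  interval_cases i <;> rfl

theorem range_α : α.range = L Fi23S.u 9 := by
  rw [MonoidHom.range_eq_map, ← top9]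
  unfold L
  rw [MonoidHom.map_closure, Set.image_image]
  congr 1
  ext y
  constructor
  · rintro ⟨i, hi, rfl⟩
    exact ⟨i, hi, (α_u i hi).symm⟩
  · rintro ⟨i, hi, rfl⟩
    exact ⟨i, hi, α_u i hi⟩

theorem card_K : Nat.card (L Fi23S.u 9) = 129123503308800 := by
  have hidx : (L Fi23S.u 9).index = 31671 := by
    rw [← Fi23S.H_eq]
    exact Cfsg.Agent.S1689.result.1
  have h := Subgroup.card_mul_index (L Fi23S.u 9)
  rw [hidx, Cfsg.Agent.S1697.result.2] at h
  omega

theorem card_P9 : Nat.card P9 = 129123503308800 := by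
  have := card_P9_le.1
  apply le_antisymm card_P9_le.2
  have h := Nat.card_le_card_of_surjective _ α.rangeRestrict_surjective
  rw [range_α, card_K] at h
  exact h

theorem α_injective : Function.Injective α := by
  have := card_P9_le.1
  have hb : Function.Bijective α.rangeRestrict :=
    α.rangeRestrict_surjective.bijective_of_nat_card_le (by rw [range_α, card_K, card_P9])
  intro x y hxy
  apply hb.1
  exact Subtype.ext hxy

/-! ### The map to `Fi₂₂` -/

/-- the homomorphism from the presented cover onto `Fi₂₂` -/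
noncomputable def π : P9 →* Fi22 :=
  PresentedGroup.toGroup (rels := coxRelators Fi22.edges ∪ {r | r ∈ extra9})
    (f := fun x => (PresentedGroup.of x : Fi22)) (by
    intro r hr
    have hmk : FreeGroup.lift (fun x => (PresentedGroup.of x : Fi22)) =
        PresentedGroup.mk (coxRelators Fi22.edges ∪ {r | r ∈ Fi22.extra}) :=
      FreeGroup.ext_hom _ _ (fun z => by rw [FreeGroup.lift_apply_of]; rfl)
    rw [hmk]
    apply PresentedGroup.one_of_mem
    rcases hr with hr | hr
    · exact Or.inl hr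
    · right
      have hr' : r ∈ extra9 := hr
      simp only [extra9, List.mem_cons, List.not_mem_nil, or_false] at hr'
      rcases hr' with rfl | rfl <;> simp [Fi22.extra])

theorem π_of (x : Fi22.Gen) : π (PresentedGroup.of x) = PresentedGroup.of x := by
  unfold π
  rw [PresentedGroup.toGroup.of]

theorem π_surjective : Function.Surjective π := by
  rw [← MonoidHom.range_eq_top, eq_top_iff,
    ← PresentedGroup.closure_range_of (coxRelators Fi22.edges ∪ {r | r ∈ Fi22.extra}),
    Subgroup.closure_le]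
  rintro _ ⟨x, rfl⟩
  exact ⟨PresentedGroup.of x, π_of x⟩

theorem card_ker : Nat.card π.ker = 2 := by
  have h : Nat.card π.ker * π.ker.index = Nat.card P9 := Subgroup.card_mul_index π.ker
  have h1 : π.ker.index = 64561751654400 := by
    have e : π.range = ⊤ := MonoidHom.range_eq_top.mpr π_surjective
    calc π.ker.index = Nat.card π.range := Subgroup.index_ker π
      _ = Nat.card (⊤ : Subgroup Fi22) := by rw [e]
      _ = Nat.card Fi22 := Subgroup.card_top
      _ = 64561751654400 := Cfsg.Agent.S1696.result.2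
  have h2 : Nat.card π.ker * 64561751654400 = 2 * 64561751654400 := by
    calc Nat.card π.ker * 64561751654400 = Nat.card π.ker * π.ker.index := by rw [h1]
      _ = Nat.card P9 := h
      _ = 129123503308800 := card_P9
      _ = 2 * 64561751654400 := by norm_num
  exact Nat.eq_of_mul_eq_mul_right (by norm_num) h2

theorem center_eq : Subgroup.center P9 = π.ker := by
  apply le_antisymm
  · intro c hc
    have h1 : π c ∈ Subgroup.center Fi22 := by
      rw [Subgroup.mem_center_iff]
      intro y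
      obtain ⟨x, rfl⟩ := π_surjective y
      rw [← map_mul, ← map_mul, Subgroup.mem_center_iff.mp hc x]
    have := Cfsg.Agent.S1696.result.1
    have h2 : Subgroup.center Fi22 = ⊥ := by
      apply DC.center_eq_bot_of_simple
      rw [Cfsg.Agent.S1696.result.2]
      intro hp
      have := hp.eq_one_or_self_of_dvd 2 (by norm_num)
      omega
    rw [h2, Subgroup.mem_bot] at h1
    exact h1
  · exact DC.le_center_of_card_two π.ker card_ker

/-! ### The presented cover is perfect -/

theorem comm_edge {C : Type*} [CommGroup C] (x y : C) (hx : x * x = 1) (hy : y * y = 1)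
    (h : (x * y) ^ 3 = 1) : x = y := by
  have e : (x * y) ^ 3 = (x * x) * (y * y) * (x * y) := by
    rw [mul_pow]
    simp only [pow_succ, pow_zero, one_mul]
    simp only [mul_assoc, mul_left_comm, mul_comm]
  rw [e, hx, hy, one_mul, one_mul] at h
  calc x = x * (y * y) := by rw [hy, mul_one]
    _ = (x * y) * y := by rw [mul_assoc]
    _ = y := by rw [h, one_mul]

/-- the generators of `P9` -/
noncomputable abbrev o (x : Fi22.Gen) : P9 := PresentedGroup.of x

theorem node (x : Fi22.Gen) : x ∈ coxNodes Fi22.edges := by cases x <;> decide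

theorem pairP (x y : Fi22.Gen) (m : ℕ) (hm : coxLabel Fi22.edges x y = m) : (o x * o y) ^ m = 1 := by
  have hmem : (FreeGroup.of x * FreeGroup.of y) ^ m ∈ coxRelators Fi22.edges ∪ {r | r ∈ extra9} :=
    Or.inl ⟨x, node x, y, node y, by rw [hm]⟩
  have h := PresentedGroup.one_of_mem hmem
  rw [map_pow, map_mul] at h
  exact h

/-- images of the generators in the abelianization -/
noncomputable def ab (x : Fi22.Gen) : Abelianization P9 := Abelianization.of (o x)

theorem ab_sq (x : Fi22.Gen) : ab x * ab x = 1 := by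
  have h := pairP x x 1 (by unfold coxLabel; rw [if_pos rfl])
  rw [pow_one] at h
  unfold ab
  rw [← map_mul, h, map_one]

theorem ab_edge (x y : Fi22.Gen) (hl : coxLabel Fi22.edges x y = 3) : ab x = ab y := by
  have h := pairP x y 3 hl
  have h3 : (ab x * ab y) ^ 3 = 1 := by
    unfold ab
    rw [← map_mul, ← map_pow, h, map_one]
  exact comm_edge _ _ (ab_sq x) (ab_sq y) h3

theorem ab_one (x : Fi22.Gen) : ab x = 1 := by
  have e1 : ab .a = ab .b := ab_edge _ _ (by decide)
  have e2 : ab .b = ab .c := ab_edge _ _ (by decide)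
  have e3 : ab .c = ab .d := ab_edge _ _ (by decide)
  have e4 : ab .d = ab .e := ab_edge _ _ (by decide)
  have e5 : ab .e = ab .f := ab_edge _ _ (by decide)
  have e6 : ab .f = ab .g := ab_edge _ _ (by decide)
  have e7 : ab .d = ab .h := ab_edge _ _ (by decide)
  have e8 : ab .h = ab .i := ab_edge _ _ (by decide)
  have hall : ∀ y, ab y = ab .d := by
    intro y
    cases y
    · rw [e1, e2, e3]
    · rw [e2, e3]
    · rw [e3]
    · rfl
    · rw [← e4]
    · rw [← e5, ← e4]
    · rw [← e6, ← e5, ← e4]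
    · rw [← e7]
    · rw [← e8, ← e7]
  have hmem : (Fi22.a * Fi22.b * Fi22.c * Fi22.d * Fi22.e * Fi22.f * Fi22.h) ^ 9
      ∈ coxRelators Fi22.edges ∪ {r | r ∈ extra9} := Or.inr (by simp [extra9])
  have h := PresentedGroup.one_of_mem hmem
  simp only [map_pow, map_mul] at h
  have h' : ((o .a * o .b * o .c * o .d * o .e * o .f * o .h) ^ 9 : P9) = 1 := h
  have h9 : (ab .a * ab .b * ab .c * ab .d * ab .e * ab .f * ab .h) ^ 9 = 1 := by
    unfold ab
    simp only [← map_mul, ← map_pow]
    rw [h', map_one]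
  rw [hall .a, hall .b, hall .c, hall .e, hall .f, hall .h] at h9
  have h2 : ab .d ^ 2 = 1 := by rw [sq]; exact ab_sq .d
  have e : (ab .d * ab .d * ab .d * ab .d * ab .d * ab .d * ab .d) ^ 9 = (ab .d ^ 2) ^ 31 * ab .d := by
    rw [← pow_mul]
    simp only [← pow_two, ← pow_succ, ← pow_mul]
  rw [e, h2, one_pow, one_mul] at h9
  rw [hall x, h9]

theorem P9_perfect : commutator P9 = ⊤ := by
  rw [eq_top_iff, ← PresentedGroup.closure_range_of (coxRelators Fi22.edges ∪ {r | r ∈ extra9}),
    Subgroup.closure_le]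
  rintro _ ⟨x, rfl⟩
  have h : Abelianization.of (o x) = 1 := ab_one x
  have hk : o x ∈ (Abelianization.of (G := P9)).ker := h
  rwa [Abelianization.ker_of] at hk

/-! ### Conclusion -/

/-- the central quotient of the presented cover is `Fi₂₂` -/
noncomputable def quotEquiv : P9 ⧸ Subgroup.center P9 ≃* Fi22 :=
  (QuotientGroup.quotientMulEquivOfEq center_eq).trans
    (QuotientGroup.quotientKerEquivOfSurjective π π_surjective)

theorem card_center : Nat.card (Subgroup.center P9) = 2 := by
  rw [center_eq]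
  exact card_ker

/-- the presented cover is isomorphic to the subgroup of `Fi₂₃` -/
noncomputable def eqvK : P9 ≃* (Subgroup.closure ({Fi23.a, Fi23.b, Fi23.c, Fi23.d, Fi23.e, Fi23.f, Fi23.g, Fi23.h, Fi23.i} : Set (FreeGroup Fi23.Gen))).map
    (PresentedGroup.mk (coxRelators Fi23.edges ∪ {r | r ∈ Fi23.extra})) :=
  (MonoidHom.ofInjective α_injective).trans
    (MulEquiv.subgroupCongr (range_α.trans Fi23S.H_eq.symm))

theorem main : Cfsg.IsNonsplitDoubleCover
    ((Subgroup.closure ({Fi23.a, Fi23.b, Fi23.c, Fi23.d, Fi23.e, Fi23.f, Fi23.g, Fi23.h, Fi23.i} : Set (FreeGroup Fi23.Gen))).map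
      (PresentedGroup.mk (coxRelators Fi23.edges ∪ {r | r ∈ Fi23.extra}))) Fi22 :=
  DC.nonsplit_of_equiv eqvK card_center quotEquiv P9_perfect

end Cfsg.Agent.Lib.Helper28.Fi23Sub
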