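import Cfsg.Agent.Lib.Helper28.TT23D

set_option autoImplicit false
set_option maxRecDepth 1000000

namespace Cfsg.Agent.Lib.Helper28.TT23

open Cfsg.Agent.Lib.Helper56 Cfsg.Agent.Lib.Helper56.TC Cfsg.Agent.Lib.Helper56.TC.Tabs

theorem chk3_c23760 : allRange (fun x => forceN chkTr3 x) 23760 990 = true := by decide +kernel
theorem chk3_c24750 : allRange (fun x => forceN chkTr3 x) 24750 990 = true := by decide +kernel
theorem chk3_c25740 : allRange (fun x => forceN chkTr3 x) 25740 990 = true := by decide +kernel
theorem chk3_c26730 : allRange (fun x => forceN chkTr3 x) 26730 990 = true := by decide +kernel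

end Cfsg.Agent.Lib.Helper28.TT23
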