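import Mathlib
import Cfsg.Prelude.Def_SporadicB

/-!
# Classes of 3-transpositions from a rank three action

Let `H` be a subgroup of a finite simple group `G` whose orbits on `G ⧸ H` are the base coset and
two orbits of sizes `a ≠ b`, with `1 + a` and `1 + b` not dividing the index.  Then `H` is maximal.
If moreover `H` centralises an involution `t` which has a conjugate `e₁ ≠ t` commuting with it and
a conjugate `e₂` with `(t e₂)^3 = 1 ≠ (t e₂)^2`, then `H` is the centraliser of `t`, the conjugates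
of `t` form a class of 3-transpositions of size `[G : H]`, and all their centralisers are
isomorphic to `H`.
-/

set_option autoImplicit false

namespace Cfsg.Agent.Lib.Helper28.TT

open MulAction

variable {G : Type*} [Group G]

theorem smul_mk' (H : Subgroup G) (h : H) (g : G) :
    h • (QuotientGroup.mk g : G ⧸ H) = QuotientGroup.mk ((h : G) * g) := rfl

/-- `y H` lies in the `H`-orbit of `x H` iff `y ∈ H x H` -/
theorem mem_orbit_mk (H : Subgroup G) (x y : G) :
    (QuotientGroup.mk y : G ⧸ H) ∈ orbit H (QuotientGroup.mk x : G ⧸ H) ↔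
      ∃ h ∈ H, ∃ h' ∈ H, y = h * x * h' := by
  constructor
  · rintro ⟨h, hh⟩
    have e : (QuotientGroup.mk ((h : G) * x) : G ⧸ H) = QuotientGroup.mk y := hh
    rw [QuotientGroup.eq] at e
    exact ⟨h, h.2, _, e, by group⟩
  · rintro ⟨h, hh, h', hh', rfl⟩
    refine ⟨⟨h, hh⟩, ?_⟩
    show (QuotientGroup.mk (h * x) : G ⧸ H) = QuotientGroup.mk (h * x * h')
    rw [QuotientGroup.eq]
    have e : (h * x)⁻¹ * (h * x * h') = h' := by group
    rw [e]
    exact hh'

theorem mk_eq_base (H : Subgroup G) (y : G) :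
    (QuotientGroup.mk y : G ⧸ H) = QuotientGroup.mk 1 ↔ y ∈ H := by
  rw [eq_comm, QuotientGroup.eq, inv_one, one_mul]

theorem orbit_base (H : Subgroup G) :
    orbit H (QuotientGroup.mk 1 : G ⧸ H) = {QuotientGroup.mk 1} := by
  ext q
  obtain ⟨y, rfl⟩ := QuotientGroup.mk_surjective q
  rw [mem_orbit_mk, Set.mem_singleton_iff, mk_eq_base]
  constructor
  · rintro ⟨h, hh, h', hh', rfl⟩
    rw [mul_one]
    exact H.mul_mem hh hh'
  · intro e
    exact ⟨y, e, 1, H.one_mem, by group⟩

section rank3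

variable (H : Subgroup G) {a b : ℕ} (q₁ q₂ : G ⧸ H)
  (h1 : (orbit H q₁).ncard = a) (h2 : (orbit H q₂).ncard = b)
  (hidx : H.index = 1 + a + b) (ha : 1 < a) (hb : 1 < b) (hab : a ≠ b)

include h1 ha in
theorem base_notMem₁ : (QuotientGroup.mk 1 : G ⧸ H) ∉ orbit H q₁ := by
  intro h
  have e := orbit_eq_iff.mpr h
  rw [orbit_base] at e
  rw [← e, Set.ncard_singleton] at h1
  omega

include h1 h2 hidx ha hb hab in
/-- the three orbits cover the cosets -/
theorem cover [Finite G] (q : G ⧸ H) : q = QuotientGroup.mk 1 ∨ q ∈ orbit H q₁ ∨ q ∈ orbit H q₂ := by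
  have n1 := base_notMem₁ H q₁ h1 ha
  have n2 := base_notMem₁ H q₂ h2 hb
  have d12 : Disjoint (orbit H q₁) (orbit H q₂) := by
    rcases orbit.eq_or_disjoint (G := H) q₁ q₂ with h | h
    · exfalso
      rw [h] at h1
      omega
    · exact h
  have c1 : (insert (QuotientGroup.mk 1 : G ⧸ H) (orbit H q₁ ∪ orbit H q₂)).ncard = 1 + a + b := by
    rw [Set.ncard_insert_of_notMem (by
      intro h
      rcases h with h | h
      · exact n1 h
      · exact n2 h), Set.ncard_union_eq d12, h1, h2]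
    omega
  have hU : insert (QuotientGroup.mk 1 : G ⧸ H) (orbit H q₁ ∪ orbit H q₂) = Set.univ := by
    apply Set.eq_of_subset_of_ncard_le (Set.subset_univ _)
    rw [Set.ncard_univ, c1, ← hidx]
    exact le_of_eq rfl
  have hq : q ∈ insert (QuotientGroup.mk 1 : G ⧸ H) (orbit H q₁ ∪ orbit H q₂) := by
    rw [hU]
    trivial
  rcases hq with hq | hq | hq
  · exact Or.inl hq
  · exact Or.inr (Or.inl hq)
  · exact Or.inr (Or.inr hq)

include h1 h2 hidx ha hb hab in
/-- `H` is a maximal subgroup -/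
theorem eq_of_le [Finite G] (hda : ¬ (1 + a) ∣ (1 + a + b)) (hdb : ¬ (1 + b) ∣ (1 + a + b))
    (M : Subgroup G) (hHM : H ≤ M) (hM : M ≠ ⊤) : M = H := by
  by_contra hne
  have hcov := cover H q₁ q₂ h1 h2 hidx ha hb hab
  have n1 := base_notMem₁ H q₁ h1 ha
  have n2 := base_notMem₁ H q₂ h2 hb
  set S : Set (G ⧸ H) := {q | ∃ m ∈ M, q = QuotientGroup.mk m} with hS
  have hpre : (QuotientGroup.mk ⁻¹' S : Set G) = (M : Set G) := by
    ext g
    constructor
    · rintro ⟨m, hm, e⟩
      have e' : (QuotientGroup.mk g : G ⧸ H) = QuotientGroup.mk m := e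
      rw [QuotientGroup.eq] at e'
      have h3 := hHM e'
      have e4 : g = m * (g⁻¹ * m)⁻¹ := by group
      rw [SetLike.mem_coe, e4]
      exact M.mul_mem hm (M.inv_mem h3)
    · intro hg
      exact ⟨g, hg, rfl⟩
  have hcard : Nat.card M = Nat.card H * S.ncard := by
    have h := QuotientGroup.card_preimage_mk H S
    rw [hpre] at h
    exact h
  have hbase : (QuotientGroup.mk 1 : G ⧸ H) ∈ S := ⟨1, M.one_mem, rfl⟩
  have hinv : ∀ q ∈ S, orbit H q ⊆ S := by
    rintro _ ⟨m, hm, rfl⟩ _ ⟨h, rfl⟩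
    exact ⟨h * m, M.mul_mem (hHM h.2) hm, rfl⟩
  have hsub : ∀ q₀ : G ⧸ H, (∃ q ∈ orbit H q₀, q ∈ S) → orbit H q₀ ⊆ S := by
    rintro q₀ ⟨q, hq, hqS⟩
    rw [← orbit_eq_iff.mpr hq]
    exact hinv q hqS
  have hdvd : Nat.card H * S.ncard ∣ Nat.card H * (1 + a + b) := by
    rw [← hcard, ← hidx, Subgroup.card_mul_index]
    exact Subgroup.card_subgroup_dvd_card M
  have hdvd' : S.ncard ∣ 1 + a + b := Nat.dvd_of_mul_dvd_mul_left Nat.card_pos hdvd
  -- an element of `M` outside `H`
  have hex : ∃ m ∈ M, m ∉ H := by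
    by_contra hcon
    apply hne
    apply le_antisymm _ hHM
    intro m hm
    by_contra hmH
    exact hcon ⟨m, hm, hmH⟩
  obtain ⟨m, hm, hmH⟩ := hex
  have hmS : (QuotientGroup.mk m : G ⧸ H) ∈ S := ⟨m, hm, rfl⟩
  have hmb : (QuotientGroup.mk m : G ⧸ H) ≠ QuotientGroup.mk 1 := fun h => hmH ((mk_eq_base H m).mp h)
  by_cases A1 : orbit H q₁ ⊆ S
  · by_cases A2 : orbit H q₂ ⊆ S
    · -- everything
      apply hM
      rw [eq_top_iff]
      intro g _
      have hg : (QuotientGroup.mk g : G ⧸ H) ∈ S := by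
        rcases hcov (QuotientGroup.mk g) with h | h | h
        · rw [h]; exact hbase
        · exact A1 h
        · exact A2 h
      have hg' : g ∈ (QuotientGroup.mk ⁻¹' S : Set G) := hg
      rw [hpre] at hg'
      exact hg'
    · have hSeq : S = insert (QuotientGroup.mk 1 : G ⧸ H) (orbit H q₁) := by
        ext q
        constructor
        · intro hq
          rcases hcov q with h | h | h
          · exact Or.inl h
          · exact Or.inr h
          · exact absurd (hsub q₂ ⟨q, h, hq⟩) A2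
        · rintro (h | h)
          · rw [h]; exact hbase
          · exact A1 h
      have hc : S.ncard = 1 + a := by
        rw [hSeq, Set.ncard_insert_of_notMem n1, h1]
        omega
      rw [hc] at hdvd'
      exact hda hdvd'
  · by_cases A2 : orbit H q₂ ⊆ S
    · have hSeq : S = insert (QuotientGroup.mk 1 : G ⧸ H) (orbit H q₂) := by
        ext q
        constructor
        · intro hq
          rcases hcov q with h | h | h
          · exact Or.inl h
          · exact absurd (hsub q₁ ⟨q, h, hq⟩) A1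
          · exact Or.inr h
        · rintro (h | h)
          · rw [h]; exact hbase
          · exact A2 h
      have hc : S.ncard = 1 + b := by
        rw [hSeq, Set.ncard_insert_of_notMem n2, h2]
        omega
      rw [hc] at hdvd'
      exact hdb hdvd'
    · rcases hcov (QuotientGroup.mk m) with h | h | h
      · exact hmb h
      · exact A1 (hsub q₁ ⟨_, h, hmS⟩)
      · exact A2 (hsub q₂ ⟨_, h, hmS⟩)

end rank3

/-! ### Centralisers and conjugates -/

theorem mem_cent (t g : G) : g ∈ Subgroup.centralizer ({t} : Set G) ↔ t * g = g * t := by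
  rw [Subgroup.mem_centralizer_iff]
  constructor
  · intro h
    exact h t rfl
  · rintro h _ rfl
    exact h

theorem card_conj (t : G) :
    Nat.card (conjugatesOf t) = (Subgroup.centralizer ({t} : Set G)).index := by
  symm
  show Nat.card (G ⧸ Subgroup.centralizer ({t} : Set G)) = _
  apply Nat.card_congr
  refine Equiv.ofBijective (fun q => Quotient.liftOn' q
    (fun g => (⟨g * t * g⁻¹, isConj_iff.mpr ⟨g, rfl⟩⟩ : conjugatesOf t)) ?_) ⟨?_, ?_⟩
  · intro g g' h
    rw [QuotientGroup.leftRel_apply, mem_cent] at h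
    apply Subtype.ext
    show g * t * g⁻¹ = g' * t * g'⁻¹
    calc g * t * g⁻¹ = g * (t * (g⁻¹ * g')) * g'⁻¹ := by group
      _ = g * (g⁻¹ * g' * t) * g'⁻¹ := by rw [h]
      _ = g' * t * g'⁻¹ := by group
  · intro q q'
    induction q using Quotient.inductionOn' with
    | h g =>
      induction q' using Quotient.inductionOn' with
      | h g' =>
        intro h
        apply Quotient.sound'
        rw [QuotientGroup.leftRel_apply, mem_cent]
        have h' : g * t * g⁻¹ = g' * t * g'⁻¹ := congrArg Subtype.val h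
        calc t * (g⁻¹ * g') = g⁻¹ * (g * t * g⁻¹) * g' := by group
          _ = g⁻¹ * (g' * t * g'⁻¹) * g' := by rw [h']
          _ = g⁻¹ * g' * t := by group
  · rintro ⟨d, hd⟩
    obtain ⟨c, rfl⟩ := isConj_iff.mp hd
    exact ⟨QuotientGroup.mk c, rfl⟩

/-- conjugation by `g` maps the centraliser of `t` onto that of `g t g⁻¹` -/
noncomputable def conjIso (H : Subgroup G) (t g : G)
    (hC : Subgroup.centralizer ({t} : Set G) = H) :
    H ≃* Subgroup.centralizer ({g * t * g⁻¹} : Set G) where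
  toFun h := ⟨g * h * g⁻¹, by
    rw [mem_cent]
    have hh : t * (h : G) = h * t := (mem_cent t h).mp (by rw [hC]; exact h.2)
    calc g * t * g⁻¹ * (g * h * g⁻¹) = g * (t * h) * g⁻¹ := by group
      _ = g * (h * t) * g⁻¹ := by rw [hh]
      _ = g * h * g⁻¹ * (g * t * g⁻¹) := by group⟩
  invFun c := ⟨g⁻¹ * c * g, by
    rw [← hC, mem_cent]
    have hc : g * t * g⁻¹ * (c : G) = c * (g * t * g⁻¹) := (mem_cent _ _).mp c.2
    calc t * (g⁻¹ * c * g) = g⁻¹ * (g * t * g⁻¹ * c) * g := by group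
      _ = g⁻¹ * (c * (g * t * g⁻¹)) * g := by rw [hc]
      _ = g⁻¹ * c * g * t := by group⟩
  left_inv h := by
    apply Subtype.ext
    show g⁻¹ * (g * (h : G) * g⁻¹) * g = h
    group
  right_inv c := by
    apply Subtype.ext
    show g * (g⁻¹ * (c : G) * g) * g⁻¹ = c
    group
  map_mul' h h' := by
    apply Subtype.ext
    show g * ((h : G) * (h' : G)) * g⁻¹ = (g * h * g⁻¹) * (g * h' * g⁻¹)
    group

theorem key (H : Subgroup G) (t : G) (hH : ∀ g ∈ H, t * g = g * t) (x y h h' : G) (hh : h ∈ H)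
    (hh' : h' ∈ H) (e : y = h * x * h') (m : ℕ) :
    (t * (y * t * y⁻¹)) ^ m = h * (t * (x * t * x⁻¹)) ^ m * h⁻¹ := by
  have e1 : y * t * y⁻¹ = h * (x * t * x⁻¹) * h⁻¹ := by
    rw [e]
    calc h * x * h' * t * (h * x * h')⁻¹ = h * x * (h' * t) * h'⁻¹ * x⁻¹ * h⁻¹ := by group
      _ = h * x * (t * h') * h'⁻¹ * x⁻¹ * h⁻¹ := by rw [hH h' hh']
      _ = h * (x * t * x⁻¹) * h⁻¹ := by group
  have e2 : t * (y * t * y⁻¹) = h * (t * (x * t * x⁻¹)) * h⁻¹ := by
    rw [e1]
    calc t * (h * (x * t * x⁻¹) * h⁻¹) = (t * h) * (x * t * x⁻¹) * h⁻¹ := by group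
      _ = (h * t) * (x * t * x⁻¹) * h⁻¹ := by rw [hH h hh]
      _ = h * (t * (x * t * x⁻¹)) * h⁻¹ := by group
  rw [e2, conj_pow]

/-- the main statement -/
theorem main [Finite G] [IsSimpleGroup G] (H : Subgroup G) (n a b : ℕ)
    (hidx : H.index = n)
    (horb : ∃ q₁ q₂ : G ⧸ H, (orbit H q₁).ncard = a ∧ (orbit H q₂).ncard = b)
    (hn : n = 1 + a + b) (ha : 1 < a) (hb : 1 < b) (hab : a ≠ b)
    (hda : ¬ (1 + a) ∣ n) (hdb : ¬ (1 + b) ∣ n)
    (t e₁ e₂ : G) (ht2 : t * t = 1) (hc : H ≤ Subgroup.centralizer ({t} : Set G))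
    (he₁ : e₁ ∈ conjugatesOf t) (he₂ : e₂ ∈ conjugatesOf t) (h1 : e₁ ≠ t)
    (h12 : (t * e₁) ^ 2 = 1) (h23 : (t * e₂) ^ 3 = 1) (h22 : (t * e₂) ^ 2 ≠ 1) :
    Cfsg.IsThreeTranspositionClass (conjugatesOf t) ∧ Nat.card (conjugatesOf t) = n ∧
      ∀ d ∈ conjugatesOf t, Nonempty (H ≃* Subgroup.centralizer ({d} : Set G)) := by
  obtain ⟨q₁, q₂, ho1, ho2⟩ := horb
  subst hn
  obtain ⟨x₁, rfl⟩ := isConj_iff.mp he₁
  obtain ⟨x₂, rfl⟩ := isConj_iff.mp he₂
  have he2sq : (x₂ * t * x₂⁻¹) * (x₂ * t * x₂⁻¹) = 1 := by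
    calc (x₂ * t * x₂⁻¹) * (x₂ * t * x₂⁻¹) = x₂ * (t * t) * x₂⁻¹ := by group
      _ = 1 := by rw [ht2]; group
  have ht1 : t ≠ 1 := by
    rintro rfl
    apply h22
    simp
  have hx2 : x₂ * t * x₂⁻¹ ∉ Subgroup.centralizer ({t} : Set G) := by
    intro h
    rw [mem_cent] at h
    apply h22
    rw [pow_two]
    calc t * (x₂ * t * x₂⁻¹) * (t * (x₂ * t * x₂⁻¹))
        = t * (x₂ * t * x₂⁻¹ * t) * (x₂ * t * x₂⁻¹) := by group
      _ = t * (t * (x₂ * t * x₂⁻¹)) * (x₂ * t * x₂⁻¹) := by rw [← h]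
      _ = (t * t) * ((x₂ * t * x₂⁻¹) * (x₂ * t * x₂⁻¹)) := by group
      _ = 1 := by rw [ht2, he2sq, mul_one]
  have hCtop : Subgroup.centralizer ({t} : Set G) ≠ ⊤ := by
    intro h
    apply hx2
    rw [h]
    trivial
  have hC : Subgroup.centralizer ({t} : Set G) = H :=
    eq_of_le H q₁ q₂ ho1 ho2 hidx ha hb hab hda hdb _ hc hCtop
  have hH : ∀ g ∈ H, t * g = g * t := by
    intro g hg
    rw [← hC] at hg
    exact (mem_cent t g).mp hg
  have hH' : ∀ g, t * g = g * t → g ∈ H := by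
    intro g hg
    rw [← hC]
    exact (mem_cent t g).mpr hg
  have hcov := cover H q₁ q₂ ho1 ho2 hidx ha hb hab
  -- the cosets of `x₁` and `x₂`
  have hx1b : (QuotientGroup.mk x₁ : G ⧸ H) ≠ QuotientGroup.mk 1 := by
    intro h
    have hx := hH x₁ ((mk_eq_base H x₁).mp h)
    apply h1
    rw [← hx]
    group
  have hx2b : (QuotientGroup.mk x₂ : G ⧸ H) ≠ QuotientGroup.mk 1 := by
    intro h
    have hx := hH x₂ ((mk_eq_base H x₂).mp h)
    apply hx2
    rw [← hx]
    have e : t * x₂ * x₂⁻¹ = t := by group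
    rw [e, mem_cent]
  have hdiff : (QuotientGroup.mk x₂ : G ⧸ H) ∉ orbit H (QuotientGroup.mk x₁ : G ⧸ H) := by
    intro hmem
    obtain ⟨h, hh, h', hh', e⟩ := (mem_orbit_mk H x₁ x₂).mp hmem
    apply h22
    rw [key H t hH x₁ x₂ h h' hh hh' e 2, h12]
    group
  have hcov' : ∀ q : G ⧸ H, q = QuotientGroup.mk 1 ∨ q ∈ orbit H (QuotientGroup.mk x₁ : G ⧸ H) ∨
      q ∈ orbit H (QuotientGroup.mk x₂ : G ⧸ H) := by
    intro q
    rcases hcov (QuotientGroup.mk x₁) with h | h | h
    · exact absurd h hx1b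
    · rcases hcov (QuotientGroup.mk x₂) with h' | h' | h'
      · exact absurd h' hx2b
      · exfalso
        apply hdiff
        rw [orbit_eq_iff.mpr h]
        exact h'
      · rw [orbit_eq_iff.mpr h, orbit_eq_iff.mpr h']
        exact hcov q
    · rcases hcov (QuotientGroup.mk x₂) with h' | h' | h'
      · exact absurd h' hx2b
      · rw [orbit_eq_iff.mpr h, orbit_eq_iff.mpr h']
        rcases hcov q with h'' | h'' | h''
        · exact Or.inl h''
        · exact Or.inr (Or.inr h'')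
        · exact Or.inr (Or.inl h'')
      · exfalso
        apply hdiff
        rw [orbit_eq_iff.mpr h]
        exact h'
  have hQ : ∀ y : G, (t * (y * t * y⁻¹)) ^ 2 = 1 ∨ (t * (y * t * y⁻¹)) ^ 3 = 1 := by
    intro y
    rcases hcov' (QuotientGroup.mk y) with h | h | h
    · left
      have hy := hH y ((mk_eq_base H y).mp h)
      have e : y * t * y⁻¹ = t := by
        rw [← hy]
        group
      rw [e, ht2, one_pow]
    · left
      obtain ⟨h, hh, h', hh', e⟩ := (mem_orbit_mk H x₁ y).mp h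
      rw [key H t hH x₁ y h h' hh hh' e 2, h12]
      group
    · right
      obtain ⟨h, hh, h', hh', e⟩ := (mem_orbit_mk H x₂ y).mp h
      rw [key H t hH x₂ y h h' hh hh' e 3, h23]
      group
  refine ⟨⟨⟨?_, ?_⟩, ⟨t, mem_conjugatesOf_self, rfl⟩, ?_⟩, ?_, ?_⟩
  · intro d hd
    obtain ⟨c, rfl⟩ := isConj_iff.mp hd
    apply orderOf_eq_prime
    · rw [conj_pow, pow_two, ht2]
      group
    · intro h
      apply ht1
      have e : t = c⁻¹ * (c * t * c⁻¹) * c := by group
      rw [e, h]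
      group
  · intro d hd e he
    obtain ⟨g, rfl⟩ := isConj_iff.mp hd
    obtain ⟨k, rfl⟩ := isConj_iff.mp he
    have e : g * t * g⁻¹ * (k * t * k⁻¹)
        = g * (t * ((g⁻¹ * k) * t * (g⁻¹ * k)⁻¹)) * g⁻¹ := by group
    rw [e, conj_pow, conj_pow]
    rcases hQ (g⁻¹ * k) with h | h
    · left
      rw [h]
      group
    · right
      rw [h]
      group
  · have hnc : Subgroup.closure (conjugatesOf t) = Subgroup.normalClosure ({t} : Set G) := by
      unfold Subgroup.normalClosure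
      congr 1
      ext x
      rw [Group.mem_conjugatesOfSet_iff]
      constructor
      · intro hx
        exact ⟨t, rfl, hx⟩
      · rintro ⟨_, rfl, hx⟩
        exact hx
    rw [hnc]
    rcases (Subgroup.Normal.eq_bot_or_eq_top (H := Subgroup.normalClosure ({t} : Set G))
      inferInstance) with h | h
    · exfalso
      apply ht1
      have ht : t ∈ Subgroup.normalClosure ({t} : Set G) :=
        Subgroup.subset_normalClosure (Set.mem_singleton t)
      rw [h, Subgroup.mem_bot] at ht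
      exact ht
    · exact h
  · rw [card_conj, hC, hidx]
  · intro d hd
    obtain ⟨g, rfl⟩ := isConj_iff.mp hd
    exact ⟨conjIso H t g hC⟩

/-! ### Small lemmas on involutions -/

theorem inv_of_sq (x : G) (hx : x * x = 1) : x⁻¹ = x := inv_eq_of_mul_eq_one_left hx

/-- two involutions whose product is an involution commute -/
theorem comm_of_sq (x y : G) (hx : x * x = 1) (hy : y * y = 1) (h : x * y * (x * y) = 1) :
    x * y = y * x := by
  have h2 : (x * y)⁻¹ = x * y := inv_eq_of_mul_eq_one_left h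
  rw [mul_inv_rev, inv_of_sq x hx, inv_of_sq y hy] at h2
  exact h2.symm

/-- two involutions whose product has order three are conjugate -/
theorem braid_conj (x y : G) (hx : x * x = 1) (hy : y * y = 1) (h : (x * y) ^ 3 = 1) :
    (x * y) * x * (x * y)⁻¹ = y := by
  rw [mul_inv_rev, inv_of_sq x hx, inv_of_sq y hy]
  have h3 : x * y * (x * y) * (x * y) = 1 := by
    rw [← h, pow_succ, pow_two]
  calc x * y * x * (y * x) = (x * y * (x * y) * (x * y)) * y⁻¹ := by group
    _ = y := by rw [h3, one_mul, inv_of_sq y hy]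

/-- commuting involutions have a product of order at most two -/
theorem sq_of_comm (x y : G) (hx : x * x = 1) (hy : y * y = 1) (h : x * y = y * x) :
    (x * y) ^ 2 = 1 := by
  rw [pow_two]
  calc x * y * (x * y) = x * (y * x) * y := by group
    _ = x * (x * y) * y := by rw [h]
    _ = (x * x) * (y * y) := by group
    _ = 1 := by rw [hx, hy, mul_one]

/-- if `(x y)^3 = 1` and `x ≠ y` for involutions `x`, `y`, then `(x y)^2 ≠ 1` -/
theorem sq_ne_of_cube (x y : G) (hy : y * y = 1) (h3 : (x * y) ^ 3 = 1) (hne : x ≠ y) :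
    (x * y) ^ 2 ≠ 1 := by
  intro h2
  apply hne
  have e : x * y = 1 := by
    calc x * y = (x * y) ^ 3 * ((x * y) ^ 2)⁻¹ := by group
      _ = 1 := by rw [h3, h2, inv_one, mul_one]
  calc x = x * (y * y) := by rw [hy, mul_one]
    _ = (x * y) * y := by group
    _ = y := by rw [e, one_mul]

end Cfsg.Agent.Lib.Helper28.TT
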