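import Mathlib
import Cfsg.Prelude.Def_Spor_Fi23
import Cfsg.Prelude.Def_Spor_Fi22
import Cfsg.Prelude.Def_SporadicB
import Cfsg.Agent.Lib.Helper28.TTClass
import Cfsg.Agent.Lib.Helper28.TT23C0
import Cfsg.Agent.Lib.Helper28.TT23C1
import Cfsg.Agent.Lib.Helper28.TT23C2
import Cfsg.Agent.Lib.Helper28.TT23C3
import Cfsg.Agent.Lib.Helper28.TT23C4
import Cfsg.Agent.Lib.Helper28.TT23C5
import Cfsg.Agent.Lib.Helper28.TT23C6
import Cfsg.Agent.Lib.Helper28.TT23C7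
import Cfsg.Agent.Lib.Helper28.Fi23Sub
import Cfsg.Agent.S1689
import Cfsg.Agent.S1696
import Cfsg.Agent.S1697

/-!
# `Fi₂₃` as a group of 3-transpositions

In the presented group `Fi₂₃` the element `t = (bcdefgh)^9` is the central involution of the
subgroup `⟨a, …, i⟩ ≅ 2·Fi₂₂` of index 31671, which is maximal (rank three with subdegrees 3510
and 28160).  It is conjugate to the generators `j` (as `(t j)^3 = 1`) and `g`.  Hence its conjugates
form a class of 31671 3-transpositions whose centralisers are non-split double covers of `Fi₂₂`.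
-/

set_option autoImplicit false
set_option maxRecDepth 1000000

namespace Cfsg.Agent.Lib.Helper28.TT23

open Cfsg.Spor Cfsg.Agent.Lib.Helper56 Cfsg.Agent.Lib.Helper56.TC Cfsg.Agent.Lib.Helper56.TC.Tabs
open Cfsg.Agent.Lib.Helper28
open Cfsg.Agent.Lib.Helper28.Fi23Sub (P9 α α_of π π_of center_eq card_ker range_α eqvK card_center
  quotEquiv P9_perfect emb extra9)

/-! ### The permutation representation -/

theorem chk_u990 : Upto chkTr3 990 := upto_add (upto_zero chkTr3) rfl chk3_c0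
theorem chk_u1980 : Upto chkTr3 1980 := upto_add chk_u990 rfl chk3_c990
theorem chk_u2970 : Upto chkTr3 2970 := upto_add chk_u1980 rfl chk3_c1980
theorem chk_u3960 : Upto chkTr3 3960 := upto_add chk_u2970 rfl chk3_c2970
theorem chk_u4950 : Upto chkTr3 4950 := upto_add chk_u3960 rfl chk3_c3960
theorem chk_u5940 : Upto chkTr3 5940 := upto_add chk_u4950 rfl chk3_c4950
theorem chk_u6930 : Upto chkTr3 6930 := upto_add chk_u5940 rfl chk3_c5940
theorem chk_u7920 : Upto chkTr3 7920 := upto_add chk_u6930 rfl chk3_c6930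
theorem chk_u8910 : Upto chkTr3 8910 := upto_add chk_u7920 rfl chk3_c7920
theorem chk_u9900 : Upto chkTr3 9900 := upto_add chk_u8910 rfl chk3_c8910
theorem chk_u10890 : Upto chkTr3 10890 := upto_add chk_u9900 rfl chk3_c9900
theorem chk_u11880 : Upto chkTr3 11880 := upto_add chk_u10890 rfl chk3_c10890
theorem chk_u12870 : Upto chkTr3 12870 := upto_add chk_u11880 rfl chk3_c11880
theorem chk_u13860 : Upto chkTr3 13860 := upto_add chk_u12870 rfl chk3_c12870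
theorem chk_u14850 : Upto chkTr3 14850 := upto_add chk_u13860 rfl chk3_c13860
theorem chk_u15840 : Upto chkTr3 15840 := upto_add chk_u14850 rfl chk3_c14850
theorem chk_u16830 : Upto chkTr3 16830 := upto_add chk_u15840 rfl chk3_c15840
theorem chk_u17820 : Upto chkTr3 17820 := upto_add chk_u16830 rfl chk3_c16830
theorem chk_u18810 : Upto chkTr3 18810 := upto_add chk_u17820 rfl chk3_c17820
theorem chk_u19800 : Upto chkTr3 19800 := upto_add chk_u18810 rfl chk3_c18810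
theorem chk_u20790 : Upto chkTr3 20790 := upto_add chk_u19800 rfl chk3_c19800
theorem chk_u21780 : Upto chkTr3 21780 := upto_add chk_u20790 rfl chk3_c20790
theorem chk_u22770 : Upto chkTr3 22770 := upto_add chk_u21780 rfl chk3_c21780
theorem chk_u23760 : Upto chkTr3 23760 := upto_add chk_u22770 rfl chk3_c22770
theorem chk_u24750 : Upto chkTr3 24750 := upto_add chk_u23760 rfl chk3_c23760
theorem chk_u25740 : Upto chkTr3 25740 := upto_add chk_u24750 rfl chk3_c24750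
theorem chk_u26730 : Upto chkTr3 26730 := upto_add chk_u25740 rfl chk3_c25740
theorem chk_u27720 : Upto chkTr3 27720 := upto_add chk_u26730 rfl chk3_c26730
theorem chk_u28710 : Upto chkTr3 28710 := upto_add chk_u27720 rfl chk3_c27720
theorem chk_u29700 : Upto chkTr3 29700 := upto_add chk_u28710 rfl chk3_c28710
theorem chk_u30690 : Upto chkTr3 30690 := upto_add chk_u29700 rfl chk3_c29700
theorem chk_u31671 : Upto chkTr3 31671 := upto_add chk_u30690 rfl chk3_c30690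

theorem chk_all : ∀ v < 31671, chkTr3 v = true := chk_u31671

/-- the generators of `Fi₂₃` in the order of the letters of the table -/
noncomputable abbrev s : ℕ → Fi23 := pgen Fi23.edges Fi23.extra Fi23S.gens

/-- the quotient map onto `Fi₂₃` -/
noncomputable abbrev mkF : FreeGroup Fi23.Gen →* Fi23 :=
  PresentedGroup.mk (coxRelators Fi23.edges ∪ {r | r ∈ Fi23.extra})

/-- the subgroup `⟨a, …, i⟩` -/
noncomputable abbrev HS : Subgroup Fi23 :=
  (Subgroup.closure ({Fi23.a, Fi23.b, Fi23.c, Fi23.d, Fi23.e, Fi23.f, Fi23.g, Fi23.h, Fi23.i} :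
    Set (FreeGroup Fi23.Gen))).map
    (PresentedGroup.mk (coxRelators Fi23.edges ∪ {r | r ∈ Fi23.extra}))

theorem s_1 : s 1 = mkF Fi23.b := pgen_of_lt Fi23.edges Fi23.extra Fi23S.gens 1 (by decide)
theorem s_2 : s 2 = mkF Fi23.c := pgen_of_lt Fi23.edges Fi23.extra Fi23S.gens 2 (by decide)
theorem s_3 : s 3 = mkF Fi23.d := pgen_of_lt Fi23.edges Fi23.extra Fi23S.gens 3 (by decide)
theorem s_4 : s 4 = mkF Fi23.e := pgen_of_lt Fi23.edges Fi23.extra Fi23S.gens 4 (by decide)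
theorem s_5 : s 5 = mkF Fi23.f := pgen_of_lt Fi23.edges Fi23.extra Fi23S.gens 5 (by decide)
theorem s_6 : s 6 = mkF Fi23.g := pgen_of_lt Fi23.edges Fi23.extra Fi23S.gens 6 (by decide)
theorem s_8 : s 8 = mkF Fi23.h := pgen_of_lt Fi23.edges Fi23.extra Fi23S.gens 8 (by decide)

theorem hnode : ∀ x ∈ Fi23S.gens, x ∈ coxNodes Fi23.edges := by decide

theorem s_sq (i : ℕ) : s i * s i = 1 := pgen_sq Fi23.edges Fi23.extra Fi23S.hall hnode i

theorem moved : Fi23a.T.followT [7] 0 ≠ 0 := by decide +kernel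

theorem ew_hom {G H : Type*} [Monoid G] [Monoid H] (f : G →* H) (g : ℕ → G) (w : List ℕ) :
    f (ew g w) = ew (fun i => f (g i)) w := by
  induction w with
  | nil => simp [ew_nil]
  | cons a w ih => rw [ew_cons, ew_cons, map_mul, ih]

theorem exists_φ : ∃ φ : Fi23 →* Equiv.Perm (Fin Fi23a.T.N),
    Function.Injective φ ∧ ∀ l, φ (s l) = sigma Fi23S.hP l := by
  obtain ⟨φ, hφ⟩ := cox_hom Fi23.edges Fi23.extra Fi23a.T Fi23S.hP (by decide +kernel) (by decide)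
    Fi23S.hall (fun _ _ => rfl) Fi23S.hrels
  refine ⟨φ, ?_, hφ⟩
  have hs : IsSimpleGroup Fi23 := Cfsg.Agent.S1697.result.1
  rw [← MonoidHom.ker_eq_bot_iff]
  rcases (φ.normal_ker).eq_bot_or_eq_top with h | h
  · exact h
  · exfalso
    have h1 : s 7 ∈ φ.ker := by rw [h]; trivial
    have h2 : sigma Fi23S.hP 7 = 1 := by rw [← hφ 7]; exact h1
    have h3 := ew_sigma Fi23S.hP [7] (by decide +kernel) ⟨0, Fi23S.hP.hN⟩
    have h4 : ew (sigma Fi23S.hP) [7] = 1 := by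
      rw [ew_cons, ew_nil, mul_one, h2]
    rw [h4] at h3
    exact moved h3.symm

theorem trW3_K : ∀ w ∈ trW3, ∀ a ∈ w, a < Fi23a.T.K := by decide +kernel

theorem fi_word3 : ∀ w ∈ trW3, ew s w = 1 := by
  intro w hw
  obtain ⟨φ, hinj, hφ⟩ := exists_φ
  apply hinj
  rw [map_one, ew_hom φ s w]
  have e : (fun i => φ (s i)) = sigma Fi23S.hP := funext hφ
  rw [e]
  apply Equiv.ext
  intro x
  apply Fin.ext
  rw [ew_sigma Fi23S.hP w (trW3_K w hw) x]
  have h := chk_all x.val x.isLt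
  exact beq_true ((allW_iff _ _).mp h w hw)

theorem ew_ne (w w' : List ℕ) (hw : ∀ a ∈ w, a < Fi23a.T.K) (hw' : ∀ a ∈ w', a < Fi23a.T.K)
    (v : ℕ) (hv : v < Fi23a.T.N) (h : Fi23a.T.followT w v ≠ Fi23a.T.followT w' v) :
    ew s w ≠ ew s w' := by
  intro e
  obtain ⟨φ, -, hφ⟩ := exists_φ
  have e1 : (fun i => φ (s i)) = sigma Fi23S.hP := funext hφ
  have e2 : ew (sigma Fi23S.hP) w = ew (sigma Fi23S.hP) w' := by
    rw [← e1, ← ew_hom φ s w, ← ew_hom φ s w', e]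
  have h3 := ew_sigma Fi23S.hP w hw ⟨v, hv⟩
  have h4 := ew_sigma Fi23S.hP w' hw' ⟨v, hv⟩
  rw [e2] at h3
  exact h (h3.symm.trans h4)

theorem ew_one (x : ℕ) : ew s [x] = s x := by rw [ew_cons, ew_nil, mul_one]

/-! ### The central involution of `⟨a, …, i⟩` -/

/-- the element `(bcdefgh)^9` -/
noncomputable def t : Fi23 :=
  mkF ((Fi23.b * Fi23.c * Fi23.d * Fi23.e * Fi23.f * Fi23.g * Fi23.h) ^ 9)

theorem t_eq : t = ew s zW := by
  have e : zW = List.flatten (List.replicate 9 [1, 2, 3, 4, 5, 6, 8]) := by decide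
  unfold t
  rw [e, ew_rep, map_pow, map_mul, map_mul, map_mul, map_mul, map_mul, map_mul, ← s_1, ← s_2, ← s_3,
    ← s_4, ← s_5, ← s_6, ← s_8]
  congr 1

/-- the corresponding element of the presented cover -/
noncomputable def ζ : P9 :=
  PresentedGroup.mk (coxRelators Fi22.edges ∪ {r | r ∈ extra9})
    ((Fi22.b * Fi22.c * Fi22.d * Fi22.e * Fi22.f * Fi22.g * Fi22.h) ^ 9)

theorem π_ζ : π ζ = 1 := by
  have hmk : π.comp (PresentedGroup.mk (coxRelators Fi22.edges ∪ {r | r ∈ extra9})) =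
      PresentedGroup.mk (coxRelators Fi22.edges ∪ {r | r ∈ Fi22.extra}) :=
    FreeGroup.ext_hom _ _ (fun z => π_of z)
  have h : π ζ = (π.comp (PresentedGroup.mk (coxRelators Fi22.edges ∪ {r | r ∈ extra9})))
      ((Fi22.b * Fi22.c * Fi22.d * Fi22.e * Fi22.f * Fi22.g * Fi22.h) ^ 9) := rfl
  rw [h, hmk]
  exact PresentedGroup.one_of_mem (Or.inr (by simp [Fi22.extra]))

theorem α_ζ : α ζ = t := by
  have h : ∀ x : Fi22.Gen, α (PresentedGroup.mk (coxRelators Fi22.edges ∪ {r | r ∈ extra9})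
      (FreeGroup.of x)) = mkF (FreeGroup.of (emb x)) := α_of
  unfold ζ t
  simp only [map_pow, map_mul]
  rw [h, h, h, h, h, h, h]
  rfl

theorem ζ_ker : ζ ∈ π.ker := π_ζ

theorem ζ_center : ζ ∈ Subgroup.center P9 := by
  rw [center_eq]
  exact ζ_ker

theorem ζ_sq : ζ ^ 2 = 1 := by
  have h2 : ((⟨ζ, ζ_ker⟩ : π.ker) ^ 2 : π.ker) = 1 := by
    rw [← card_ker]
    exact pow_card_eq_one'
  simpa using congrArg Subtype.val h2

theorem t_sq : t * t = 1 := by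
  rw [← α_ζ, ← map_mul, ← pow_two, ζ_sq, map_one]

theorem HS_eq : HS = α.range := (range_α.trans Fi23S.H_eq.symm).symm

theorem hc : HS ≤ Subgroup.centralizer ({t} : Set Fi23) := by
  rw [HS_eq]
  rintro _ ⟨p, rfl⟩
  rw [TT.mem_cent, ← α_ζ, ← map_mul, ← map_mul]
  congr 1
  exact (Subgroup.mem_center_iff.mp ζ_center p).symm

/-! ### Relations with the generators `j` and `g` -/

theorem cube_tj : (t * s 7) ^ 3 = 1 := by
  have h := fi_word3 [1, 2, 3, 4, 5, 6, 8, 1, 2, 3, 4, 5, 6, 8, 1, 2, 3, 4, 5, 6, 8, 1, 2, 3, 4, 5, 6, 8, 1, 2, 3, 4, 5, 6, 8, 1, 2, 3, 4, 5, 6, 8, 1, 2, 3, 4, 5, 6, 8, 1, 2, 3, 4, 5, 6, 8, 1, 2, 3, 4, 5, 6, 8, 7, 1, 2, 3, 4, 5, 6, 8, 1, 2, 3, 4, 5, 6, 8, 1, 2, 3, 4, 5, 6, 8, 1, 2, 3, 4, 5, 6, 8, 1, 2, 3, 4, 5, 6, 8, 1, 2, 3, 4, 5, 6, 8, 1, 2, 3, 4, 5, 6, 8, 1, 2, 3, 4, 5, 6, 8, 1, 2, 3, 4, 5, 6, 8, 7, 1, 2, 3, 4, 5, 6, 8, 1, 2, 3, 4, 5, 6, 8, 1, 2, 3, 4, 5, 6, 8, 1, 2, 3, 4,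 5, 6, 8, 1, 2, 3, 4, 5, 6, 8, 1, 2, 3, 4, 5, 6, 8, 1, 2, 3, 4, 5, 6, 8, 1, 2, 3, 4, 5, 6, 8, 1, 2, 3, 4, 5, 6, 8, 7] (by decide)
  have e : [1, 2, 3, 4, 5, 6, 8, 1, 2, 3, 4, 5, 6, 8, 1, 2, 3, 4, 5, 6, 8, 1, 2, 3, 4, 5, 6, 8, 1, 2, 3, 4, 5, 6, 8, 1, 2, 3, 4, 5, 6, 8, 1, 2, 3, 4, 5, 6, 8, 1, 2, 3, 4, 5, 6, 8, 1, 2, 3, 4, 5, 6, 8, 7, 1, 2, 3, 4, 5, 6, 8, 1, 2, 3, 4, 5, 6, 8, 1, 2, 3, 4, 5, 6, 8, 1, 2, 3, 4, 5, 6, 8, 1, 2, 3, 4, 5, 6, 8, 1, 2, 3, 4, 5, 6, 8, 1, 2, 3, 4, 5, 6, 8, 1, 2, 3, 4, 5, 6, 8, 1, 2, 3, 4, 5, 6, 8, 7, 1, 2, 3, 4, 5, 6, 8, 1, 2, 3, 4, 5, 6, 8, 1, 2, 3, 4, 5, 6, 8, 1, 2, 3, 4, 5, 6, 8, 1, 2, 3, 4, 5, 6, 8, 1, 2, 3, 4, 5, 6, 8, 1, 2, 3, 4, 5, 6, 8, 1, 2, 3, 4, 5, 6, 8, 1, 2, 3, 4, 5, 6, 8, 7] = List.flatten (List.replicate 3 (zW ++ [7])) := by decide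
  rw [e, ew_rep, ew_append, ew_one, ← t_eq] at h
  exact h

theorem cube_jg : (s 7 * s 6) ^ 3 = 1 := by
  have h := fi_word3 [7, 6, 7, 6, 7, 6] (by decide)
  rw [← h, ew_cons, ew_cons, ew_cons, ew_cons, ew_cons, ew_cons, ew_nil, mul_one, pow_succ, pow_two]
  group

theorem zW_K : ∀ a ∈ zW, a < Fi23a.T.K := by decide +kernel

theorem t_ne_j : t ≠ s 7 := by
  rw [t_eq, ← ew_one 7]
  exact ew_ne zW [7] zW_K (by decide +kernel) 0 (by decide +kernel) (by decide +kernel)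

theorem g_ne_t : s 6 ≠ t := by
  rw [t_eq, ← ew_one 6]
  exact ew_ne [6] zW (by decide +kernel) zW_K 1 (by decide +kernel) (by decide +kernel)

theorem g_mem : s 6 ∈ HS := by
  rw [s_6]
  exact Subgroup.mem_map_of_mem _ (Subgroup.subset_closure (by simp))

theorem comm_g : t * s 6 = s 6 * t := (TT.mem_cent t (s 6)).mp (hc g_mem)

theorem he2 : s 7 ∈ conjugatesOf t :=
  isConj_iff.mpr ⟨t * s 7, TT.braid_conj t (s 7) t_sq (s_sq 7) cube_tj⟩

theorem he1 : s 6 ∈ conjugatesOf t := by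
  have b1 := TT.braid_conj t (s 7) t_sq (s_sq 7) cube_tj
  have b2 := TT.braid_conj (s 7) (s 6) (s_sq 7) (s_sq 6) cube_jg
  refine isConj_iff.mpr ⟨s 7 * s 6 * (t * s 7), ?_⟩
  calc (s 7 * s 6 * (t * s 7)) * t * (s 7 * s 6 * (t * s 7))⁻¹
      = (s 7 * s 6) * ((t * s 7) * t * (t * s 7)⁻¹) * (s 7 * s 6)⁻¹ := by group
    _ = s 6 := by rw [b1, b2]

theorem finite23 : Finite Fi23 := by
  apply Nat.finite_of_card_ne_zero
  intro h0
  have h := Cfsg.Agent.S1697.result.2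
  rw [h0] at h
  exact absurd h (by norm_num)

/-- the class of 3-transpositions of `Fi₂₃` -/
theorem main : Cfsg.IsThreeTranspositionClass (conjugatesOf t) ∧
    Nat.card (conjugatesOf t) = 31671 ∧
    ∀ d ∈ conjugatesOf t,
      Cfsg.IsNonsplitDoubleCover (Subgroup.centralizer ({d} : Set Fi23)) Fi22 := by
  have hsimp : IsSimpleGroup Fi23 := Cfsg.Agent.S1697.result.1
  have hfin : Finite Fi23 := finite23
  obtain ⟨h1, h2, h3⟩ := TT.main HS 31671 3510 28160 Cfsg.Agent.S1689.result.1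
    Cfsg.Agent.S1689.result.2 (by norm_num) (by norm_num) (by norm_num) (by norm_num)
    (by norm_num) (by norm_num) t (s 6) (s 7) t_sq hc he1 he2 g_ne_t
    (TT.sq_of_comm _ _ t_sq (s_sq 6) comm_g) cube_tj
    (TT.sq_ne_of_cube _ _ (s_sq 7) cube_tj t_ne_j)
  refine ⟨h1, h2, ?_⟩
  intro d hd
  obtain ⟨e⟩ := h3 d hd
  exact DC.nonsplit_of_equiv (eqvK.trans e) card_center quotEquiv P9_perfect

end Cfsg.Agent.Lib.Helper28.TT23
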