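import Mathlib
import Cfsg.Agent.Lib.Helper56.TC
import Cfsg.Agent.Lib.Helper56.Fi23a.Cert

/-!
# Words in the generators of `Fi₂₃` acting trivially on the 31671 cosets (3-transposition data)

Generated file (helper28): with `t = (bcdefgh)^9`, the words `(t j)^3` and `(j g)^3`.
Letters `0, …, 9` are the generators `a, b, c, d, e, f, g, j, h, i`.
-/

set_option autoImplicit false
set_option maxRecDepth 1000000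

namespace Cfsg.Agent.Lib.Helper28.TT23

open Cfsg.Agent.Lib.Helper56 Cfsg.Agent.Lib.Helper56.TC Cfsg.Agent.Lib.Helper56.TC.Tabs

/-- the word `(bcdefgh)^9` -/
def zW : List ℕ :=
  [1, 2, 3, 4, 5, 6, 8, 1, 2, 3, 4, 5, 6, 8, 1, 2, 3, 4, 5, 6, 8, 1, 2, 3, 4, 5, 6, 8, 1, 2, 3, 4, 5, 6, 8, 1, 2, 3, 4, 5, 6, 8, 1, 2, 3, 4, 5, 6, 8, 1, 2, 3, 4, 5, 6, 8, 1, 2, 3, 4, 5, 6, 8]

/-- the words -/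
def trW3 : List (List ℕ) :=
  [[1, 2, 3, 4, 5, 6, 8, 1, 2, 3, 4, 5, 6, 8, 1, 2, 3, 4, 5, 6, 8, 1, 2, 3, 4, 5, 6, 8, 1, 2, 3, 4, 5, 6, 8, 1, 2, 3, 4, 5, 6, 8, 1, 2, 3, 4, 5, 6, 8, 1, 2, 3, 4, 5, 6, 8, 1, 2, 3, 4, 5, 6, 8, 7, 1, 2, 3, 4, 5, 6, 8, 1, 2, 3, 4, 5, 6, 8, 1, 2, 3, 4, 5, 6, 8, 1, 2, 3, 4, 5, 6, 8, 1, 2, 3, 4, 5, 6, 8, 1, 2, 3, 4, 5, 6, 8, 1, 2, 3, 4, 5, 6, 8, 1, 2, 3, 4, 5, 6, 8, 1, 2, 3, 4, 5, 6, 8, 7, 1, 2, 3, 4, 5, 6, 8, 1, 2, 3, 4, 5, 6, 8, 1, 2, 3, 4, 5, 6, 8, 1, 2, 3, 4, 5, 6, 8, 1, 2, 3, 4, 5, 6, 8, 1, 2, 3, 4, 5, 6, 8, 1, 2, 3, 4, 5, 6, 8, 1, 2, 3, 4, 5, 6, 8, 1, 2, 3, 4, 5, 6, 8, 7],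
   [7, 6, 7, 6, 7, 6]]

/-- the check at the point `v`: every word fixes `v` -/
noncomputable def chkTr3 (v : ℕ) : Bool :=
  allW (fun w => Nat.beq (Fi23a.T.followT w v) v) trW3

end Cfsg.Agent.Lib.Helper28.TT23
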